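import Cfsg.Agent.LieClassical.OrthCore

/-!
# S2452, orthogonal groups of odd dimension: involutions with `beta` of rank one are reflections up to sign

`R1_refl` (box D1b of helper781).
-/

set_option autoImplicit false

namespace Cfsg.Agent.H144.TW

open QuadraticMap Module Cfsg.Agent.LieClassical.OrthCore

variable {F V : Type*} [Field F] [AddCommGroup V] [Module F V] {Q : QuadraticForm F V}

/-- a nondegenerate subspace -/
def Nd (Q : QuadraticForm F V) (W : Submodule F V) : Prop := ∀ x ∈ W, (∀ y ∈ W, polar Q x y = 0) → x = 0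

theorem exists_ne {W : Submodule F V} (hW : Nd Q W) (h0 : W ≠ ⊥) : ∃ v ∈ W, Q v ≠ 0 := by
  by_contra hcon
  push Not at hcon
  apply h0
  rw [eq_bot_iff]
  intro x hx
  apply hW x hx
  intro y hy
  rw [polar, hcon _ (W.add_mem hx hy), hcon x hx, hcon y hy, sub_zero, sub_zero]

/-- the orthogonal complement in `W` of a nonsingular vector -/
theorem exists_perp [FiniteDimensional F V] (h2 : (2 : F) ≠ 0) {W : Submodule F V} (hW : Nd Q W) {v : V} (hv : v ∈ W)
    (hv0 : Q v ≠ 0) : ∃ W' : Submodule F V, W' ≤ W ∧ Nd Q W' ∧ (∀ x ∈ W', polar Q v x = 0) ∧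
      finrank F W ≤ finrank F W' + 1 := by
  have hvv : polar Q v v ≠ 0 := by
    rw [polar_self']
    exact mul_ne_zero h2 hv0
  have key : ∀ x ∈ W, ∃ c : F, x - c • v ∈ W ⊓ LinearMap.ker (polarBilin Q v) := by
    intro x hx
    refine ⟨polar Q v x / polar Q v v, W.sub_mem hx (W.smul_mem _ hv), ?_⟩
    change polar Q v (x - (polar Q v x / polar Q v v) • v) = 0
    rw [polar_sub_right, polar_smul_right, smul_eq_mul, div_mul_cancel₀ _ hvv, sub_self]
  refine ⟨W ⊓ LinearMap.ker (polarBilin Q v), inf_le_left, ?_, fun x hx => hx.2, ?_⟩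
  · intro x hx h
    apply hW x hx.1
    intro y hy
    obtain ⟨c, hc⟩ := key y hy
    have h1 := h _ hc
    have h3 : polar Q v x = 0 := hx.2
    rw [polar_sub_right, polar_smul_right, polar_comm Q x v, h3, smul_zero, sub_zero] at h1
    exact h1
  · have h3 : W ≤ (W ⊓ LinearMap.ker (polarBilin Q v)) ⊔ Submodule.span F {v} := by
      intro x hx
      obtain ⟨c, hc⟩ := key x hx
      have e : x = (x - c • v) + c • v := by rw [sub_add_cancel]
      rw [e]
      exact Submodule.add_mem_sup hc (Submodule.smul_mem _ _ (Submodule.mem_span_singleton_self v))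
    have h4 := Submodule.finrank_mono h3
    have h5 := Submodule.finrank_add_le_finrank_add_finrank (W ⊓ LinearMap.ker (polarBilin Q v)) (Submodule.span F {v})
    have h6 := finrank_span_le_card (R := F) ({v} : Set V)
    rw [Set.toFinset_singleton, Finset.card_singleton] at h6
    omega

theorem exists_sol [Finite F] (h2 : (2 : F) ≠ 0) {a b : F} (ha : a ≠ 0) (hb : b ≠ 0) (c : F) :
    ∃ x y : F, x * x * a + y * y * b = c := by
  have := Fintype.ofFinite F
  classical
  have hc : Fintype.card F % 2 = 1 := by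
    apply FiniteField.odd_card_of_char_ne_two
    intro h
    apply h2
    have h3 := (ringChar.spec F 2).2 (by rw [h])
    exact_mod_cast h3
  obtain ⟨x, y, hxy⟩ := FiniteField.exists_root_sum_quadratic (R := F)
    (f := Polynomial.C a * Polynomial.X ^ 2) (g := Polynomial.C b * Polynomial.X ^ 2 - Polynomial.C c)
    (by rw [Polynomial.degree_C_mul_X_pow 2 ha]; rfl)
    (by
      rw [Polynomial.degree_sub_C (by rw [Polynomial.degree_C_mul_X_pow 2 hb]; norm_num),
        Polynomial.degree_C_mul_X_pow 2 hb]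
      rfl) hc
  refine ⟨x, y, ?_⟩
  simp only [Polynomial.eval_mul, Polynomial.eval_C, Polynomial.eval_pow, Polynomial.eval_X,
    Polynomial.eval_sub] at hxy
  linear_combination hxy

theorem ne_bot {W : Submodule F V} (h : 1 ≤ finrank F W) : W ≠ ⊥ := by
  rintro rfl
  rw [finrank_bot] at h
  omega

/-- universality -/
theorem exists_val [FiniteDimensional F V] [Finite F] (h2 : (2 : F) ≠ 0) {W : Submodule F V} (hW : Nd Q W)
    (hd : 2 ≤ finrank F W) (c : F) : ∃ u ∈ W, Q u = c := by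
  obtain ⟨e, he, he0⟩ := exists_ne hW (ne_bot (by omega))
  obtain ⟨W', h1, h3, h4, h5⟩ := exists_perp h2 hW he he0
  obtain ⟨f, hf, hf0⟩ := exists_ne h3 (ne_bot (by omega))
  obtain ⟨x, y, hxy⟩ := exists_sol h2 he0 hf0 c
  refine ⟨x • e + y • f, W.add_mem (W.smul_mem _ he) (W.smul_mem _ (h1 hf)), ?_⟩
  rw [Q_add, QuadraticMap.map_smul, QuadraticMap.map_smul, polar_smul_left, polar_smul_right, h4 f hf, smul_zero,
    smul_zero, add_zero, smul_eq_mul, smul_eq_mul, hxy]

section main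

variable [FiniteDimensional F V] [Finite F]

/-- both eigenspaces of dimension `≥ 2`, one of them `≥ 4`: contradiction -/
theorem false_of_big (h2 : (2 : F) ≠ 0) {g : V ≃ₗ[F] V} (hg : g ∈ O Q)
    (hR : ∀ x y : V, Q x = 0 → Q y = 0 → polar Q x y = 0 →
      polar Q (g x) x * polar Q (g y) y = polar Q (g x) y * polar Q (g y) x) {ε : F} (hε : ε * ε = 1)
    {U W : Submodule F V} (hU : Nd Q U) (hW : Nd Q W) (hgU : ∀ v ∈ U, g v = ε • v) (hgW : ∀ v ∈ W, g v = -(ε • v))
    (hUd : 3 ≤ finrank F U) (hWd : 2 ≤ finrank F W) : False := by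
  have ho : ∀ u ∈ U, ∀ w ∈ W, polar Q u w = 0 := by
    intro u hu w hw
    have h1 := polar_map hg u w
    rw [hgU u hu, hgW w hw, polar_neg_right, polar_smul_left, polar_smul_right, smul_smul, hε, one_smul] at h1
    have h3 : 2 * polar Q u w = 0 := by linear_combination -h1
    exact (mul_eq_zero.1 h3).resolve_left h2
  obtain ⟨w₁, hw₁, hq₁⟩ := exists_ne hW (ne_bot (by omega))
  obtain ⟨W', h1, h3, h4, h5⟩ := exists_perp h2 hW hw₁ hq₁
  obtain ⟨w₂, hw₂, hq₂⟩ := exists_ne h3 (ne_bot (by omega))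
  obtain ⟨u₁, hu₁, e₁⟩ := exists_val h2 hU (by omega) (-Q w₁)
  obtain ⟨U', k1, k3, k4, k5⟩ := exists_perp h2 hU hu₁ (by rw [e₁]; exact neg_ne_zero.2 hq₁)
  obtain ⟨u₂, hu₂, e₂⟩ := exists_val h2 k3 (by omega) (-Q w₂)
  have p12 := k4 u₂ hu₂
  have q12 := h4 w₂ hw₂
  have o11 := ho u₁ hu₁ w₁ hw₁
  have o12 := ho u₁ hu₁ w₂ (h1 hw₂)
  have o21 := ho u₂ (k1 hu₂) w₁ hw₁
  have o22 := ho u₂ (k1 hu₂) w₂ (h1 hw₂)
  have hx : Q (u₁ + w₁) = 0 := by rw [Q_add, o11, e₁]; ring
  have hy : Q (u₂ + w₂) = 0 := by rw [Q_add, o22, e₂]; ring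
  have hxy : polar Q (u₁ + w₁) (u₂ + w₂) = 0 := by
    rw [polar_add_left, polar_add_right, polar_add_right, p12, q12, o12, polar_comm Q w₁ u₂, o21]
    ring
  have h6 := hR _ _ hx hy hxy
  rw [map_add, map_add, hgU u₁ hu₁, hgW w₁ hw₁, hgU u₂ (k1 hu₂), hgW w₂ (h1 hw₂)] at h6
  simp only [polar_add_left, polar_add_right, polar_neg_left, polar_smul_left, polar_self', p12, q12, o11, o12, o21,
    o22, polar_comm Q w₁ u₁, polar_comm Q w₂ u₂, polar_comm Q w₁ u₂, polar_comm Q w₂ u₁, polar_comm Q u₂ u₁,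
    polar_comm Q w₂ w₁, smul_eq_mul, e₁, e₂] at h6
  have h7 : (2 * 2) * (2 * 2) * ((ε * ε) * (Q w₁ * Q w₂)) = 0 := by linear_combination h6
  rw [hε, one_mul] at h7
  have h8 : (2 : F) * 2 ≠ 0 := mul_ne_zero h2 h2
  exact (mul_ne_zero (mul_ne_zero h8 h8) (mul_ne_zero hq₁ hq₂)) h7

omit [Finite F] in
theorem eq_span {W : Submodule F V} (h : finrank F W = 1) {z : V} (hz : z ∈ W) (hz0 : z ≠ 0) {v : V} (hv : v ∈ W) :
    ∃ c : F, v = c • z := by
  have h1 : Submodule.span F {z} = W := by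
    apply Submodule.eq_of_le_of_finrank_eq
    · rw [Submodule.span_singleton_le_iff_mem]
      exact hz
    · rw [finrank_span_singleton hz0, h]
  rw [← h1] at hv
  obtain ⟨c, hc⟩ := Submodule.mem_span_singleton.1 hv
  exact ⟨c, hc.symm⟩

/-- **box D1b** -/
theorem R1_refl (h2 : (2 : F) ≠ 0) (hQ : Nondeg Q) (hd : 7 ≤ finrank F V) {g : V ≃ₗ[F] V} (hg : g ∈ O Q)
    (hR : ∀ x y : V, Q x = 0 → Q y = 0 → polar Q x y = 0 →
      polar Q (g x) x * polar Q (g y) y = polar Q (g x) y * polar Q (g y) x)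
    (hsq : ∀ v, g (g v) = v) :
    (∃ c : F, ∀ v, g v = c • v) ∨ ∃ z, Q z ≠ 0 ∧ ((∀ v, g v = v - (polar Q z v / Q z) • z) ∨
      ∀ v, g v = (polar Q z v / Q z) • z - v) := by
  let U : Submodule F V := LinearMap.ker ((g : V →ₗ[F] V) - LinearMap.id)
  let W : Submodule F V := LinearMap.ker ((g : V →ₗ[F] V) + LinearMap.id)
  have mU : ∀ {v}, v ∈ U ↔ g v = v := by
    intro v
    rw [LinearMap.mem_ker, LinearMap.sub_apply, LinearMap.id_apply, sub_eq_zero]
    rfl
  have mW : ∀ {v}, v ∈ W ↔ g v = -v := by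
    intro v
    rw [LinearMap.mem_ker, LinearMap.add_apply, LinearMap.id_apply, add_eq_zero_iff_eq_neg]
    rfl
  have hsplit : ∀ v : V, ∃ u ∈ U, ∃ w ∈ W, v = u + w := by
    intro v
    refine ⟨(2 : F)⁻¹ • (v + g v), mU.2 ?_, (2 : F)⁻¹ • (v - g v), mW.2 ?_, ?_⟩
    · rw [map_smul, map_add, hsq, add_comm]
    · rw [map_smul, map_sub, hsq, ← smul_neg, neg_sub]
    · rw [← smul_add]
      have : v + g v + (v - g v) = (2 : F) • v := by rw [two_smul]; abel
      rw [this, smul_smul, inv_mul_cancel₀ h2, one_smul]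
  have ho : ∀ u ∈ U, ∀ w ∈ W, polar Q u w = 0 := by
    intro u hu w hw
    have h1 := polar_map hg u w
    rw [mU.1 hu, mW.1 hw, polar_neg_right] at h1
    have h3 : 2 * polar Q u w = 0 := by linear_combination -h1
    exact (mul_eq_zero.1 h3).resolve_left h2
  have hUN : Nd Q U := by
    intro x hx h
    apply hQ x
    intro y
    obtain ⟨u, hu, w, hw, rfl⟩ := hsplit y
    rw [polar_add_right, h u hu, ho x hx w hw, add_zero]
  have hWN : Nd Q W := by
    intro x hx h
    apply hQ x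
    intro y
    obtain ⟨u, hu, w, hw, rfl⟩ := hsplit y
    rw [polar_add_right, h w hw, polar_comm Q x u, ho u hu x hx, add_zero]
  have hsum : finrank F V ≤ finrank F U + finrank F W := by
    have h1 := Submodule.finrank_add_le_finrank_add_finrank U W
    have h3 : U ⊔ W = ⊤ := by
      rw [eq_top_iff]
      intro v _
      obtain ⟨u, hu, w, hw, rfl⟩ := hsplit v
      exact Submodule.add_mem_sup hu hw
    rw [h3, finrank_top] at h1
    exact h1
  have hU1 : ∀ v ∈ U, g v = (1 : F) • v := fun v hv => by rw [one_smul, mU.1 hv]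
  have hU2 : ∀ v ∈ U, g v = -((-1 : F) • v) := fun v hv => by rw [neg_one_smul, neg_neg, mU.1 hv]
  have hW1 : ∀ v ∈ W, g v = (-1 : F) • v := fun v hv => by rw [neg_one_smul, mW.1 hv]
  have hW2 : ∀ v ∈ W, g v = -((1 : F) • v) := fun v hv => by rw [one_smul, mW.1 hv]
  rcases Nat.lt_or_ge (finrank F W) 2 with hw | hw
  · rcases Nat.lt_or_ge (finrank F W) 1 with hw' | hw'
    · left
      refine ⟨1, fun v => ?_⟩
      obtain ⟨u, hu, w, hw, rfl⟩ := hsplit v
      have h3 : W = ⊥ := Submodule.finrank_eq_zero.1 (by omega)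
      rw [h3, Submodule.mem_bot] at hw
      rw [hw, add_zero]
      exact hU1 u hu
    · right
      obtain ⟨z, hz, hz0⟩ := exists_ne hWN (ne_bot hw')
      have hz1 : z ≠ 0 := by rintro rfl; exact hz0 (map_zero Q)
      refine ⟨z, hz0, Or.inl fun v => ?_⟩
      obtain ⟨u, hu, w, hw, rfl⟩ := hsplit v
      obtain ⟨c, rfl⟩ := eq_span (by omega) hz hz1 hw
      rw [map_add, mU.1 hu, mW.1 hw, polar_add_right, polar_comm Q z u, ho u hu z hz, polar_smul_right, polar_self',
        zero_add, smul_eq_mul]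
      have e : c * (2 * Q z) / Q z = 2 * c := by field_simp
      rw [e]
      module
  rcases Nat.lt_or_ge (finrank F U) 2 with hu | hu
  · rcases Nat.lt_or_ge (finrank F U) 1 with hu' | hu'
    · left
      refine ⟨-1, fun v => ?_⟩
      obtain ⟨u, hu, w, hw, rfl⟩ := hsplit v
      have h3 : U = ⊥ := Submodule.finrank_eq_zero.1 (by omega)
      rw [h3, Submodule.mem_bot] at hu
      rw [hu, zero_add]
      exact hW1 w hw
    · right
      obtain ⟨z, hz, hz0⟩ := exists_ne hUN (ne_bot hu')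
      have hz1 : z ≠ 0 := by rintro rfl; exact hz0 (map_zero Q)
      refine ⟨z, hz0, Or.inr fun v => ?_⟩
      obtain ⟨u, hu, w, hw, rfl⟩ := hsplit v
      obtain ⟨c, rfl⟩ := eq_span (by omega) hz hz1 hu
      rw [map_add, mU.1 hu, mW.1 hw, polar_add_right, ho z hz w hw, polar_smul_right, polar_self',
        add_zero, smul_eq_mul]
      have e : c * (2 * Q z) / Q z = 2 * c := by field_simp
      rw [e]
      module
  exfalso
  rcases Nat.lt_or_ge (finrank F U) 3 with h3 | h3
  · exact false_of_big h2 hg hR (ε := -1) (by norm_num) hWN hUN hW1 hU2 (by omega) hu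
  · exact false_of_big h2 hg hR (ε := 1) (by norm_num) hUN hWN hU1 hW2 h3 hw

end main

end Cfsg.Agent.H144.TW
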